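import Cfsg.Agent.H582.Sph.BF
import Cfsg.Agent.H363.PQ.SylTor
import Cfsg.Agent.H317.PQ.Exc

/-!
# Characters of `E₈(q)` which are not in the principal block (helper329, for S4612)

`not_mem_E8`: a rational character whose degree is divisible by `Φ_e(q) ^ 3`, `e = 3` or `6`, is not in the principal
`l`-block, `l` of order `e` (`Φ_e(q) ^ 4` is the `l`-part of the order).
-/

set_option autoImplicit false

namespace Cfsg.Agent.H329.PQ

open Cfsg Cfsg.Lie Cfsg.Agent.H317.PQ Cfsg.Agent.Blocks.Basic Cfsg.Agent.Blocks.Local Cfsg.Agent.ChevalleyStructure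

universe u

/-- abelian subgroup of index prime to `l` with an element of large order: characters of large height are not in the
principal block -/
theorem not_mem_of_abelian {G : Type u} [Group G] [Finite G] {l : ℕ} (hl : l.Prime) {χ : IrrCharacter G}
    (hrat : ∀ g, ∃ q : ℚ, (χ : G → ℂ) g = q) {T : Subgroup G} (hT : IsMulCommutative T) (hi : ¬ l ∣ T.index)
    {v : ℕ} (hv : 1 ≤ v) {x : G} (hxT : x ∈ T) (hx : orderOf x = l ^ v) {k m : ℕ} (hk : 1 ≤ k)
    (hcard : Nat.card G = l ^ (v * (k + 1)) * m) (hm : ¬ l ∣ m) (hdeg : l ^ (v * k) ∣ charDegree (χ : G → ℂ)) :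
    χ ∉ B0 l G := by
  have := Fintype.ofFinite G
  have : Fact l.Prime := ⟨hl⟩
  obtain ⟨M, hM⟩ := Cfsg.Agent.Blocks.ExistsModular.exists_isPModular hl
  rw [B0_eq hl hM]
  refine H582.Sph.BF.not_mem_of_le_add hM hrat (h := v * k) (Nat.one_le_iff_ne_zero.2 (Nat.mul_ne_zero (by omega)
    (by omega))) hdeg (y := x) hv hx ?_ ?_
  · intro h
    apply hi
    refine h.trans (Subgroup.index_dvd_of_le ?_)
    intro y hy
    rw [Subgroup.mem_centralizer_singleton_iff]
    exact congrArg Subtype.val (hT.is_comm.comm (⟨y, hy⟩ : T) ⟨x, hxT⟩)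
  · have hm0 : m ≠ 0 := by
      rintro rfl
      exact hm (dvd_zero _)
    rw [hcard, Nat.factorization_mul (pow_ne_zero _ hl.ne_zero) hm0, Nat.Prime.factorization_pow hl,
      Finsupp.add_apply, Finsupp.single_eq_same, Nat.factorization_eq_zero_of_not_dvd hm, mul_add, mul_one, add_zero]

/-- **A rational character of `E₈(q)` of degree divisible by `Φ_e(q) ^ 3`.** -/
theorem not_mem_E8 (F : Type u) [Field F] [Fintype F] {l : ℕ} (hl : l.Prime) (hl2 : l ≠ 2) {e : ℕ}
    (he : e = 3 ∨ e = 6) (ho : ord (Fintype.card F) l = e) {χ : IrrCharacter ↥(chevE8.group F)}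
    (hrat : ∀ g, ∃ q : ℚ, (χ : ↥(chevE8.group F) → ℂ) g = q)
    (hdeg : ((Polynomial.cyclotomic e ℤ).eval ((Fintype.card F : ℕ) : ℤ)) ^ 3 ∣
      (charDegree (χ : ↥(chevE8.group F) → ℂ) : ℤ)) : χ ∉ B0 l ↥(chevE8.group F) := by
  have : Finite ↥(chevE8.group F) := inferInstance
  have hq : 1 < (((Fintype.card F : ℕ) : ℤ)).natAbs := by
    rw [Int.natAbs_natCast]
    exact Fintype.one_lt_card
  have he0 : 0 < e := by omega
  obtain ⟨v, b, hv, hb⟩ := H630.Exc.exists_part hl (H630.Exc.cyclotomic_eval_ne_zero he0 hq)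
  have hlen : (([2, 8, 12, 14, 18, 20, 24, 30].filter (fun i => e ∣ i)).length) = 3 + 1 := by
    rcases he with rfl | rfl <;> rfl
  obtain ⟨T, hT, hi, ⟨x, hxT, hx⟩, m, hm, hlm⟩ := H363.PQ.syl_E8 F (n := e)
    (by rcases he with rfl | rfl <;> decide) hl hl2 ho hv hb
  rw [hlen] at hm
  have hdvd : (l : ℤ) ∣ (Polynomial.cyclotomic e ℤ).eval ((Fintype.card F : ℕ) : ℤ) := by
    have : Fact l.Prime := ⟨hl⟩
    have h1 := ho
    rw [ord] at h1
    have hq0 : ((Fintype.card F : ℕ) : ZMod l) ≠ 0 := by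
      intro h2
      rw [h2, orderOf_eq_zero_iff'.2 fun n hn h3 => by rw [zero_pow hn.ne'] at h3; exact zero_ne_one h3] at h1
      omega
    have h2 : (Polynomial.cyclotomic e (ZMod l)).IsRoot ((Fintype.card F : ℕ) : ZMod l) := by
      have : NeZero ((e : ℕ) : ZMod l) := by
        constructor
        intro h3
        rw [ZMod.natCast_eq_zero_iff] at h3
        have h4 : e ∣ l - 1 := by
          rw [← h1]
          exact ZMod.orderOf_dvd_card_sub_one hq0
        have h5 := Nat.le_of_dvd he0 h3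
        have h6 := Nat.le_of_dvd (Nat.sub_pos_of_lt hl.one_lt) h4
        omega
      rw [Polynomial.isRoot_cyclotomic_iff, ← h1]
      exact IsPrimitiveRoot.orderOf _
    rw [← ZMod.intCast_zmod_eq_zero_iff_dvd]
    rw [Polynomial.IsRoot.def, ← Polynomial.map_cyclotomic_int, Polynomial.eval_map, Polynomial.eval₂_at_natCast] at h2
    exact h2
  have hv1 : 1 ≤ v := by
    rcases Nat.eq_zero_or_pos v with h0 | h0
    · exfalso
      rw [h0, pow_zero] at hv
      push_cast at hv
      rw [one_mul] at hv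
      exact hb (hv ▸ hdvd)
    · exact h0
  refine not_mem_of_abelian hl hrat hT hi hv1 hxT hx (by omega) hm hlm ?_
  have h1 : ((l ^ (v * 3) : ℕ) : ℤ) ∣ (charDegree (χ : ↥(chevE8.group F) → ℂ) : ℤ) := by
    refine dvd_trans ?_ hdeg
    rw [hv, mul_pow]
    push_cast
    rw [← pow_mul]
    exact dvd_mul_right _ _
  exact Int.natCast_dvd_natCast.1 h1

end Cfsg.Agent.H329.PQ
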